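import Mathlib
import Cfsg.Agent.Spor.FL2.Ucs

/-!
Derived series and maximality of the normalizer of a cyclic subgroup from tables.
-/

set_option autoImplicit false

namespace Cfsg.Agent.Spor.FL

open MulAction Subgroup
open scoped commutatorElement

section

variable {G α : Type*} [Group G] [MulAction G α] {e : ℕ → α} {N k : ℕ} {T : ℕ → ℕ → ℕ} {g : ℕ → G} {B : List ℕ}

/-- A letter of positive level is the commutator of two words in the letters one level below. -/
noncomputable def derOK (T : ℕ → ℕ → ℕ) (B : List ℕ) (k : ℕ) (lv : ℕ → ℕ) (W : LT) (s : ℕ) : Bool :=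
  force (lv s) fun l => bor (Nat.beq l 0) ((fun u v =>
    band (allL u fun x => band (blt x k) (Nat.beq (Nat.succ (lv x)) l))
      (band (allL v fun x => band (blt x k) (Nat.beq (Nat.succ (lv x)) l))
        (allL B fun b => Nat.beq (T s (traceP T v (traceP T u b))) (traceP T u (traceP T v b)))))
    (W.get (Nat.mul 2 s)) (W.get (Nat.succ (Nat.mul 2 s))))

theorem LM.mem_derived (h : LM e N T g k B) {lv : ℕ → ℕ} {W : LT} (hc : ∀ s < k, derOK T B k lv W s = true)
    {H : Subgroup G} (h0 : ∀ s < k, lv s = 0 → g s ∈ H) (l : ℕ) :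
    ∀ s < k, lv s = l → g s ∈ (derivedSeries H l).map H.subtype := by
  induction l with
  | zero => exact fun s hs h1 => ⟨⟨_, h0 s hs h1⟩, trivial, rfl⟩
  | succ l ih =>
    intro s hs h1
    have h2 := hc s hs
    simp only [derOK, force_eq, bor_iff, band_iff, nbeq_iff, h1, Nat.succ_ne_zero, false_or] at h2
    obtain ⟨h2, h3, h4⟩ := h2
    generalize W.get (Nat.mul 2 s) = u at h2 h4
    generalize W.get (Nat.succ (Nat.mul 2 s)) = v at h3 h4
    simp only [allL_iff, band_iff, nbeq_iff, blt_iff] at h2 h3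
    have k1 : lettersLt k u = true := (lettersLt_iff _ _).2 fun x hx => (h2 x hx).1
    have k2 : lettersLt k v = true := (lettersLt_iff _ _).2 fun x hx => (h3 x hx).1
    have k3 := evalW_mem_genLt g k1
    have k4 := evalW_mem_genLt g k2
    have k5 := h.eq_of_tab (mul_mem (mem_genLt g hs) (mul_mem k4 k3)) (mul_mem k3 k4)
      (Tab.mul (h.tabs s hs) (Tab.mul (h.tabs.evalW k2) (h.tabs.evalW k1)))
      (Tab.mul (h.tabs.evalW k1) (h.tabs.evalW k2)) h4
    rw [show g s = ⁅evalW g u, evalW g v⁆ by rw [commutatorElement_def, ← k5]; group, derivedSeries_succ,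
      map_commutator]
    exact commutator_mem_commutator (evalW_mem fun x hx => ih x (h2 x hx).1 (Nat.succ_injective (h2 x hx).2))
      (evalW_mem fun x hx => ih x (h3 x hx).1 (Nat.succ_injective (h3 x hx).2))

theorem derivedSeries_succ_ne [Group.IsSolvable G] {l : ℕ} (h : derivedSeries G l ≠ ⊥) :
    derivedSeries G (l + 1) ≠ derivedSeries G l := fun h1 => by
  have h2 : ∀ j, derivedSeries G (l + j) = derivedSeries G l := fun j => by
    induction j with
    | zero => rfl
    | succ j ih => rw [← add_assoc, derivedSeries_succ, ih, ← derivedSeries_succ, h1]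
  obtain ⟨j, hj⟩ := Group.IsSolvable.solvable (G := G)
  exact h (eq_bot_iff.2 ((h2 j).ge.trans (hj ▸ derivedSeries_antitone G (Nat.le_add_left j l))))

end

namespace TM

variable {G : Type*} [Group G] {n m : ℕ} {X : ℕ → ℕ → ℕ} {inv : ℕ → ℕ} {B : List ℕ} (M : TM G n m X inv B)

theorem closure_D [IsSimpleGroup G] (h : M.x 0 ≠ 1) : closure M.D = ⊤ := by
  have : (closure M.D).Normal := ⟨fun a ha b => by
    have : closure M.D ≤ (closure M.D).comap (MulAut.conj b).toMonoidHom :=
      (closure_le _).2 fun d hd => subset_closure (M.conj_mem hd b)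
    exact this ha⟩
  exact (this.eq_bot_or_eq_top).resolve_left fun e => h (mem_bot.1 (e ▸ subset_closure (M.mem_D M.pos)))

theorem mem_of_tri {gw : LT} (hw : gw.all (lettersLt m) = true) {k r r' : ℕ} {u v : List ℕ}
    (h : band (blt r n) (band (blt r' n) (band (lettersLt k u) (band (lettersLt k v)
      (Nat.beq (X r (traceP (wT X gw) u r)) (traceP (wT X gw) v r'))))) = true) (Y : Subgroup G)
    (hY : genLt (M.wl gw) k ≤ Y) (hr : M.x r ∈ Y) : M.x r' ∈ Y := by
  simp only [band_iff, blt_iff, nbeq_iff] at h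
  obtain ⟨h1, h2, h3, h4, h5⟩ := h
  obtain ⟨k1, k2⟩ := (M.tabs_wl hw k).evalW h3 r h1
  have k3 := (M.tabs r (h1.trans_le M.le) _ k1).2
  rw [h5, ← ((M.tabs_wl hw k).evalW h4 r' h2).2, ← k2] at k3
  have k4 := hY (evalW_mem_genLt (M.wl gw) h3)
  have k5 := hY (evalW_mem_genLt (M.wl gw) h4)
  have k6 : M.x r * (_ * M.x r * _) * (M.x r)⁻¹ = _ * M.x r' * _ := toCj_inj.1 k3
  rw [← mul_mem_cancel_left k5, ← mul_mem_cancel_right (inv_mem k5), ← k6]
  exact mul_mem (mul_mem hr (mul_mem (mul_mem k4 hr) (inv_mem k4))) (inv_mem hr)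

/-- The normalizer of `⟨z⟩` with three orbits on the transpositions is maximal. -/
theorem isCoatom_normalizer (hD : closure M.D = ⊤) {z : G} (hne : normalizer (zpowers z : Set G) ≠ ⊤) {r0 r1 r2 : ℕ}
    (hcov : ∀ p < n, ∃ r ∈ [r0, r1, r2], ∃ a ∈ normalizer (zpowers z : Set G), a • pts M.x r = pts M.x p)
    (h0 : Commute z (M.x r0)) (h1 : ∀ Y, normalizer (zpowers z : Set G) ≤ Y → M.x r1 ∈ Y → M.x r2 ∈ Y)
    (h2 : ∀ Y, normalizer (zpowers z : Set G) ≤ Y → M.x r2 ∈ Y → M.x r1 ∈ Y)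
    (hC : ∀ a : G, (∀ y ∈ M.D, Commute z y → Commute a y) → a ∈ zpowers z) :
    IsCoatom (normalizer (zpowers z : Set G)) := by
  have := M.fin
  refine ⟨hne, fun Y hY => ?_⟩
  have k0 : ∀ y, Commute z y → y ∈ Y := fun y hy =>
    hY.le (centralizer_le_normalizer_zpowers z (mem_centralizer_singleton_iff.2 hy.symm))
  by_cases h3 : M.x r1 ∈ Y ∧ M.x r2 ∈ Y
  · rw [eq_top_iff, ← hD, closure_le]
    rintro _ ⟨p, hp, rfl⟩
    obtain ⟨r, hr, a, ha, e⟩ := hcov p hp
    rw [← smul_toCj_eq.1 e]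
    refine mul_mem (mul_mem (hY.le ha) ?_) (inv_mem (hY.le ha))
    simp only [List.mem_cons, List.not_mem_nil, or_false] at hr
    rcases hr with rfl | rfl | rfl
    exacts [k0 _ h0, h3.1, h3.2]
  refine absurd (fun y hy => inv_mem_iff.1 (mem_normalizer_fintype fun c hc => ?_)) hY.not_ge
  have k1 : y⁻¹ * z * y⁻¹⁻¹ ∈ zpowers z := hC _ fun d hd h4 => by
    obtain ⟨p, hp, e1⟩ := M.conj_mem hd y
    obtain ⟨r, hr, a, ha, e⟩ := hcov p hp
    have k2 : M.x r ∈ Y := by
      have h5 := mul_mem (mul_mem (inv_mem (hY.le ha)) (mul_mem (mul_mem hy (k0 d h4)) (inv_mem hy))) (hY.le ha)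
      rwa [← e1, ← smul_toCj_eq.1 e, show a⁻¹ * (a * M.x r * a⁻¹) * a = M.x r by group] at h5
    simp only [List.mem_cons, List.not_mem_nil, or_false] at hr
    rcases hr with rfl | rfl | rfl
    · obtain ⟨j, hj⟩ := (mem_normalizer_iff.1 (inv_mem ha) z).1 (mem_zpowers z)
      have k3 := (h0.zpow_left j).eq
      simp only at hj
      rw [hj] at k3
      have k4 : d = y⁻¹ * (a * M.x r * a⁻¹) * y := by rw [smul_toCj_eq.1 e, e1]; group
      show _ = _
      rw [k4]
      calc _ = y⁻¹ * a * (a⁻¹ * z * a⁻¹⁻¹ * M.x r) * a⁻¹ * y := by group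
        _ = _ := by rw [k3]; group
    · exact absurd ⟨k2, h1 Y hY.le k2⟩ h3
    · exact absurd ⟨h2 Y hY.le k2, k2⟩ h3
  obtain ⟨j, rfl⟩ := hc
  have := zpow_mem k1 j
  rwa [conj_zpow] at this

end TM

end Cfsg.Agent.Spor.FL
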